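import Mathlib
import Cfsg.Agent.Lib.SL2.Torus
import Cfsg.Agent.Lib.SL2.Sylow

/-!
# Element orders of a 3-group extended by `2 × PSL₂(3^α)`

For `q = 3^α` the group `SL₂(q) × {±1}` acts on `2 × 2` matrices by `M ↦ e • s M φ(s)⁻¹`,
`φ` the cube map. If `tr s = t`, a nonzero fixed matrix forces `t³ = e t`; this gives the set of
element orders of the semidirect product by the image of the action.
-/

set_option autoImplicit false

open Matrix
open scoped MatrixGroups

namespace CfsgLib.SL2.TwistedTensor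

variable {F : Type*} [Field F] [CharP F 3]

local notation "M₂" => Matrix (Fin 2) (Fin 2) F

/-- The twist by the cube map. -/
def twist : SL(2, F) →* SL(2, F) := Matrix.SpecialLinearGroup.map (frobenius F 3)

lemma coe_twist (s : SL(2, F)) : ((twist s : SL(2, F)) : M₂) = (s : M₂).map (frobenius F 3) := rfl

lemma tr_twist (s : SL(2, F)) : tr (twist s) = tr s ^ 3 := by
  simp only [tr, coe_twist, Matrix.map_apply, frobenius_def]
  rw [add_pow_char]

/-- The additive automorphism attached to `(s, e)`. -/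
def act (se : SL(2, F) × ℤˣ) : M₂ ≃+ M₂ where
  toFun M := ((se.2 : ℤ) : F) • ((se.1 : M₂) * M * ((twist se.1)⁻¹ : SL(2, F)))
  invFun M := ((se.2 : ℤ) : F) • (((se.1⁻¹ : SL(2, F)) : M₂) * M * (twist se.1 : SL(2, F)))
  left_inv M := by
    have he : ((se.2 : ℤ) : F) * ((se.2 : ℤ) : F) = 1 := by
      rcases Int.units_eq_one_or se.2 with h | h <;> simp [h]
    have h1 : ((se.1⁻¹ : SL(2, F)) : M₂) * (se.1 : M₂) = 1 := by
      rw [← Matrix.SpecialLinearGroup.coe_mul, inv_mul_cancel, Matrix.SpecialLinearGroup.coe_one]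
    have h2 : (((twist se.1)⁻¹ : SL(2, F)) : M₂) * (twist se.1 : M₂) = 1 := by
      rw [← Matrix.SpecialLinearGroup.coe_mul, inv_mul_cancel, Matrix.SpecialLinearGroup.coe_one]
    simp only [Matrix.mul_smul, Matrix.smul_mul, smul_smul, he, one_smul, Matrix.mul_assoc, h2,
      Matrix.mul_one]
    rw [← Matrix.mul_assoc, h1, Matrix.one_mul]
  right_inv M := by
    have he : ((se.2 : ℤ) : F) * ((se.2 : ℤ) : F) = 1 := by
      rcases Int.units_eq_one_or se.2 with h | h <;> simp [h]
    have h1 : (se.1 : M₂) * ((se.1⁻¹ : SL(2, F)) : M₂) = 1 := by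
      rw [← Matrix.SpecialLinearGroup.coe_mul, mul_inv_cancel, Matrix.SpecialLinearGroup.coe_one]
    have h2 : (twist se.1 : M₂) * (((twist se.1)⁻¹ : SL(2, F)) : M₂) = 1 := by
      rw [← Matrix.SpecialLinearGroup.coe_mul, mul_inv_cancel, Matrix.SpecialLinearGroup.coe_one]
    simp only [Matrix.mul_smul, Matrix.smul_mul, smul_smul, he, one_smul, Matrix.mul_assoc, h2,
      Matrix.mul_one]
    rw [← Matrix.mul_assoc, h1, Matrix.one_mul]
  map_add' M N := by simp [Matrix.mul_add, Matrix.add_mul, smul_add]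

lemma act_apply (se : SL(2, F) × ℤˣ) (M : M₂) :
    act se M = ((se.2 : ℤ) : F) • ((se.1 : M₂) * M * ((twist se.1)⁻¹ : SL(2, F))) := rfl

/-- The action as a homomorphism into the automorphisms of the matrix group. -/
def rho : SL(2, F) × ℤˣ →* MulAut (Multiplicative M₂) where
  toFun se := AddEquiv.toMultiplicative (act se)
  map_one' := by
    refine MulEquiv.ext fun x => ?_
    change Multiplicative.ofAdd (act (1 : SL(2, F) × ℤˣ) x.toAdd) = x
    simp [act_apply]
  map_mul' a b := by
    refine MulEquiv.ext fun x => ?_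
    change Multiplicative.ofAdd (act (a * b) x.toAdd) = Multiplicative.ofAdd (act a (act b x.toAdd))
    congr 1
    simp [act_apply, Matrix.mul_assoc, Matrix.mul_smul, Matrix.smul_mul, smul_smul]

lemma rho_apply (se : SL(2, F) × ℤˣ) (x : Multiplicative M₂) :
    rho se x = Multiplicative.ofAdd (act se x.toAdd) := rfl

/-- A fixed matrix intertwines `s` with `e • twist s`. -/
lemma mul_eq_of_fixed {s : SL(2, F)} {e : ℤˣ} {M : M₂} (h : act (s, e) M = M) :
    (s : M₂) * M = ((e : ℤ) : F) • (M * (twist s : SL(2, F))) := by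
  have he : ((e : ℤ) : F) * ((e : ℤ) : F) = 1 := by
    rcases Int.units_eq_one_or e with h | h <;> simp [h]
  have h2 : (((twist s)⁻¹ : SL(2, F)) : M₂) * (twist s : M₂) = 1 := by
    rw [← Matrix.SpecialLinearGroup.coe_mul, inv_mul_cancel, Matrix.SpecialLinearGroup.coe_one]
  conv_rhs => rw [← h, act_apply]
  simp only [Matrix.smul_mul, smul_smul, he, one_smul, Matrix.mul_assoc, h2, Matrix.mul_one]

/-- If `(s, e)` fixes a nonzero matrix, then `t³ = e t` for `t = tr s`. -/
lemma trace_eq_of_fixed {s : SL(2, F)} {e : ℤˣ} {M : M₂} (hM : M ≠ 0) (h : act (s, e) M = M) :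
    tr s ^ 3 = ((e : ℤ) : F) * tr s := by
  set c : F := ((e : ℤ) : F) with hc
  have he : c * c = 1 := by rcases Int.units_eq_one_or e with h | h <;> simp [hc, h]
  have h1 := mul_eq_of_fixed h
  rw [← hc] at h1
  by_contra hne
  have e1 : (s : M₂) * ((s : M₂) * M) = M * ((twist s : M₂) * (twist s : M₂)) := by
    rw [h1, Matrix.mul_smul, ← Matrix.mul_assoc, h1, Matrix.smul_mul, smul_smul, he, one_smul,
      Matrix.mul_assoc]
  have hzero : (tr s * c - tr s ^ 3) • (M * (twist s : M₂)) = 0 := by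
    rw [← Matrix.mul_assoc, mul_self_eq, mul_self_eq, Matrix.sub_mul, Matrix.mul_sub, Matrix.smul_mul,
      Matrix.mul_smul, Matrix.one_mul, Matrix.mul_one, h1, smul_smul, tr_twist] at e1
    rw [sub_smul, sub_left_inj.1 e1, sub_self]
  have h3 : M * (twist s : M₂) = 0 :=
    (smul_eq_zero.1 hzero).resolve_left (fun h0 => hne (by linear_combination -h0))
  have h4 := congrArg (· * (((twist s)⁻¹ : SL(2, F)) : M₂)) h3
  simp only [Matrix.mul_assoc, ← Matrix.SpecialLinearGroup.coe_mul, mul_inv_cancel,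
    Matrix.SpecialLinearGroup.coe_one, Matrix.mul_one, Matrix.zero_mul] at h4
  exact hM h4

lemma eq_pm_one_of_sq {s : SL(2, F)} (h : s ^ 2 = 1) : s = 1 ∨ s = -1 := by
  by_cases h1 : s = 1
  · exact Or.inl h1
  · refine Or.inr (eq_neg_one_of_sq_eq_one ?_ h h1)
    have := CharP.cast_eq_zero_iff F 3 2
    intro h2
    exact absurd (this.1 (by exact_mod_cast h2)) (by norm_num)

lemma rho_pm_one {s : SL(2, F)} (h : s = 1 ∨ s = -1) : rho (s, (1 : ℤˣ)) = 1 := by
  rcases h with rfl | rfl
  · exact map_one _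
  · ext x
    rw [rho_apply, MulAut.one_apply]
    have ht : twist (-1 : SL(2, F)) = -1 := by
      apply Subtype.ext
      rw [coe_twist, Matrix.SpecialLinearGroup.coe_neg, Matrix.SpecialLinearGroup.coe_one]
      ext i k
      fin_cases i <;> fin_cases k <;> simp
    have hi : ((twist (-1 : SL(2, F)))⁻¹ : SL(2, F)) = -1 := by
      rw [ht]; exact inv_eq_of_mul_eq_one_right (by simp)
    simp [act_apply, hi]

/-- The kernel is `{±1} × 1`. -/
lemma eq_of_rho_eq_one {s : SL(2, F)} {e : ℤˣ} (h : rho (s, e) = 1) :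
    e = 1 ∧ s ^ 2 = 1 := by
  have hfix : ∀ M : M₂, act (s, e) M = M := fun M => by
    have := DFunLike.congr_fun h (Multiplicative.ofAdd M)
    rwa [rho_apply, MulAut.one_apply, toAdd_ofAdd, EmbeddingLike.apply_eq_iff_eq] at this
  set c : F := ((e : ℤ) : F) with hc
  have he : c * c = 1 := by rcases Int.units_eq_one_or e with h | h <;> simp [hc, h]
  have h1 := mul_eq_of_fixed (hfix 1)
  rw [← hc, Matrix.mul_one, Matrix.one_mul] at h1
  have hcomm : ∀ M : M₂, (s : M₂) * M = M * (s : M₂) := fun M => by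
    rw [mul_eq_of_fixed (hfix M), ← hc, ← Matrix.mul_smul, ← h1]
  have hcen : s ∈ Subgroup.center SL(2, F) :=
    Subgroup.mem_center_iff.2 fun g => Subtype.ext (hcomm (g : M₂)).symm
  rcases (mem_center_iff s).1 hcen with rfl | rfl
  · refine ⟨?_, by simp⟩
    rcases Int.units_eq_one_or e with h | h
    · exact h
    · exfalso
      have := congrFun (congrFun h1 0) 0
      simp [hc, h, map_one] at this
      have h3 := CharP.cast_eq_zero_iff F 3 2
      exact absurd (h3.1 (by push_cast; linear_combination this)) (by norm_num)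
  · refine ⟨?_, by simp⟩
    rcases Int.units_eq_one_or e with h | h
    · exact h
    · exfalso
      have := congrFun (congrFun h1 0) 0
      simp [hc, h, coe_twist, frobenius_def] at this
      have h3 := CharP.cast_eq_zero_iff F 3 2
      exact absurd (h3.1 (by push_cast; linear_combination this)) (by norm_num)

/-- The image of the action. -/
abbrev K (F : Type*) [Field F] [CharP F 3] : Subgroup (MulAut (Multiplicative (Matrix (Fin 2) (Fin 2) F))) :=
  (rho (F := F)).range

/-- The semidirect product. -/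
abbrev H (F : Type*) [Field F] [CharP F 3] :=
  Multiplicative (Matrix (Fin 2) (Fin 2) F) ⋊[(K F).subtype] K F

omit [CharP F 3] in
lemma cube_eq_one [CharP F 3] (x : Multiplicative M₂) : x ^ 3 = 1 := by
  apply Multiplicative.toAdd.injective
  rw [toAdd_pow, toAdd_one]
  ext i j
  have h3 : (3 : F) = 0 := by exact_mod_cast CharP.cast_eq_zero F 3
  simp [h3]

/-- Power of an element whose image has order dividing `m`. -/
lemma pow_three_mul {x : H F} {m : ℕ} (hm : (x.right : MulAut (Multiplicative M₂)) ^ m = 1) :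
    x ^ (3 * m) = 1 := by
  have hr : (x ^ m).right = 1 := by
    rw [← SemidirectProduct.rightHom_eq_right, map_pow]
    exact Subtype.ext hm
  have : x ^ m = SemidirectProduct.inl (x ^ m).left := SemidirectProduct.ext (by simp) (by simp [hr])
  rw [mul_comm, pow_mul, this, ← map_pow, cube_eq_one, map_one]

lemma pow_eq_one_of_fpf {x : H F} {m : ℕ} (hm : (x.right : MulAut (Multiplicative M₂)) ^ m = 1)
    (hfix : ∀ w, (x.right : MulAut (Multiplicative M₂)) w = w → w = 1) : x ^ m = 1 := by
  have hr : (x ^ m).right = 1 := by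
    rw [← SemidirectProduct.rightHom_eq_right, map_pow]
    exact Subtype.ext hm
  have hc : (x * x ^ m).left = (x ^ m * x).left := by rw [← pow_succ', ← pow_succ]
  rw [SemidirectProduct.mul_left, SemidirectProduct.mul_left, hr, map_one, MulAut.one_apply,
    mul_comm (x ^ m).left] at hc
  exact SemidirectProduct.ext (by simpa using hfix _ (mul_left_cancel hc)) (by simp [hr])

variable [Finite F] {j : ℕ}

lemma sq_ne_neg_one (hq : Nat.card F = 8 * j + 3) (t : F) : t ^ 2 ≠ -1 := by
  have := Fintype.ofFinite F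
  intro h
  have h' : IsSquare (-1 : F) := ⟨t, by rw [← h, sq]⟩
  rw [FiniteField.isSquare_neg_one_iff, ← Nat.card_eq_fintype_card, hq] at h'
  omega

/-- Every element order divides one of `9, 6, q - 1, (q + 1) / 2`. -/
lemma pow_dichotomy (hq : Nat.card F = 8 * j + 3) (x : H F) :
    x ^ 6 = 1 ∨ x ^ 9 = 1 ∨ x ^ (8 * j + 2) = 1 ∨ x ^ (4 * j + 2) = 1 := by
  obtain ⟨⟨s, e⟩, hse⟩ := x.right.2
  have hpow : ∀ m, (x.right : MulAut (Multiplicative M₂)) ^ m = rho (s ^ m, e ^ m) := fun m => by
    rw [← hse, ← map_pow, Prod.pow_mk]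
  have hfpf : tr s ^ 3 ≠ ((e : ℤ) : F) * tr s →
      ∀ w, (x.right : MulAut (Multiplicative M₂)) w = w → w = 1 := by
    intro hne w hw
    by_contra hw1
    rw [← hse, rho_apply] at hw
    exact hne (trace_eq_of_fixed (M := w.toAdd) (fun h0 => hw1 (by simpa using h0))
      (Multiplicative.ofAdd.injective (hw.trans (ofAdd_toAdd w).symm)))
  have h3 : (3 : F) = 0 := by exact_mod_cast CharP.cast_eq_zero F 3
  have h2 : (2 : F) ≠ 0 := fun h => one_ne_zero (α := F) (by linear_combination h3 - h)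
  rcases eq_or_ne (tr s) 0 with ht | ht
  · refine Or.inl ?_
    have hs : s ^ 2 = -1 := by
      apply Subtype.ext
      rw [sq, Matrix.SpecialLinearGroup.coe_mul, mul_self_eq, ht]
      simp
    have := pow_three_mul (x := x) (m := 2) (by
      rw [hpow, hs, Int.units_sq, rho_pm_one (Or.inr rfl)])
    simpa using this
  by_cases h4 : tr s ^ 2 = 4
  · have hs3 : s ^ 3 = 1 ∨ s ^ 3 = -1 := by
      apply eq_pm_one_of_sq
      rw [← pow_mul]
      have := Fact.mk (Nat.prime_three)
      exact orderOf_dvd_of_tr_sq_eq (p := 3) h4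
    rcases Int.units_eq_one_or e with rfl | rfl
    · refine Or.inr (Or.inl ?_)
      have := pow_three_mul (x := x) (m := 3) (by rw [hpow, one_pow, rho_pm_one hs3])
      simpa using this
    · refine Or.inl (pow_eq_one_of_fpf ?_ (hfpf ?_))
      · rw [hpow, show (6 : ℕ) = 3 * 2 from rfl, pow_mul, pow_mul (-1 : ℤˣ), Int.units_sq,
          rho_pm_one]
        left
        rcases hs3 with h | h <;> simp [h]
      · intro h
        have hsq : tr s ^ 2 = -1 := mul_right_cancel₀ ht (by linear_combination (norm := (simp; ring)) h)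
        exact sq_ne_neg_one hq _ hsq
  have hf : tr s ^ 3 ≠ ((e : ℤ) : F) * tr s := by
    intro h
    have hsq : tr s ^ 2 = ((e : ℤ) : F) := mul_right_cancel₀ ht (by linear_combination h)
    rcases Int.units_eq_one_or e with rfl | rfl
    · exact h4 (by rw [hsq]; simp; linear_combination -h3)
    · exact sq_ne_neg_one hq _ (by rw [hsq]; simp)
  have hmem : s ∈ Subgroup.centralizer ({s} : Set SL(2, F)) :=
    Subgroup.mem_centralizer_singleton_iff.2 rfl
  rcases card_centralizer_or (g := s) h4 with hcard | hcard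
  · refine Or.inr (Or.inr (Or.inl (pow_eq_one_of_fpf ?_ (hfpf hf))))
    have hs := Subgroup.orderOf_dvd_natCard _ hmem
    rw [hcard, hq, orderOf_dvd_iff_pow_eq_one] at hs
    rw [show 8 * j + 3 - 1 = 8 * j + 2 by omega] at hs
    rw [hpow, hs, show 8 * j + 2 = 2 * (4 * j + 1) by omega, pow_mul, Int.units_sq, one_pow]
    exact map_one _
  · refine Or.inr (Or.inr (Or.inr (pow_eq_one_of_fpf ?_ (hfpf hf))))
    have hs := Subgroup.orderOf_dvd_natCard _ hmem
    rw [hcard, hq, orderOf_dvd_iff_pow_eq_one] at hs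
    rw [hpow, show (e ^ (4 * j + 2)) = 1 by
      rw [show 4 * j + 2 = 2 * (2 * j + 1) by omega, pow_mul, Int.units_sq, one_pow]]
    apply rho_pm_one
    apply eq_pm_one_of_sq
    rw [← pow_mul, show (4 * j + 2) * 2 = 8 * j + 3 + 1 by omega, hs]

/-- The element of the complement given by `(s, e)`. -/
def compl (se : SL(2, F) × ℤˣ) : H F := SemidirectProduct.inr ⟨rho se, se, rfl⟩

omit [Finite F] in
lemma compl_pow (se : SL(2, F) × ℤˣ) (n : ℕ) : compl se ^ n = 1 ↔ rho (se ^ n) = 1 := by
  rw [compl, ← map_pow, map_eq_one_iff _ SemidirectProduct.inr_injective, map_pow, ← Subtype.coe_inj]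
  rfl

/-- The standard unipotent. -/
def uni : SL(2, F) := ⟨!![1, 1; 0, 1], by simp [det_fin_two_of]⟩

omit [Finite F] in
lemma coe_uni_pow (n : ℕ) : ((uni (F := F) ^ n : SL(2, F)) : M₂) = !![1, (n : F); 0, 1] := by
  induction n with
  | zero => simp [Matrix.one_fin_two]
  | succ n ih => rw [pow_succ, Matrix.SpecialLinearGroup.coe_mul, ih]; simp [uni, add_comm]

omit [Finite F] in
lemma twist_uni : twist (uni (F := F)) = uni := by
  apply Subtype.ext
  rw [coe_twist]
  ext i k
  fin_cases i <;> fin_cases k <;> simp [uni]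

omit [Finite F] [CharP F 3] in
lemma coe_uni_inv : (((uni (F := F))⁻¹ : SL(2, F)) : M₂) = !![1, -1; 0, 1] := by
  rw [coe_inv_eq]
  ext i k
  fin_cases i <;> fin_cases k <;> simp [uni, tr]

omit [Finite F] in
lemma exists_order_six : ∃ x : H F, orderOf x = 6 := by
  refine ⟨compl (uni, -1), ?_⟩
  have h3 : (uni (F := F)) ^ 3 = 1 := Subtype.ext (by
    rw [coe_uni_pow, Matrix.SpecialLinearGroup.coe_one, CharP.cast_eq_zero F 3, Matrix.one_fin_two])
  rw [orderOf_eq_iff (by norm_num)]
  refine ⟨?_, fun m hm hm0 h => ?_⟩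
  · rw [compl_pow, Prod.pow_mk, show (6 : ℕ) = 3 * 2 from rfl, pow_mul, h3, one_pow, pow_mul,
      Int.units_sq]
    exact map_one _
  · rw [compl_pow, Prod.pow_mk] at h
    obtain ⟨he, hs⟩ := eq_of_rho_eq_one h
    rw [← pow_mul] at hs
    have h2 : (uni (F := F)) ^ 1 ≠ 1 ∧ (uni (F := F)) ^ 2 ≠ 1 := by
      constructor <;> intro hu <;>
        · have := congrArg (fun g : SL(2, F) => (g : M₂) 0 1) hu
          simp only [coe_uni_pow] at this
          simp at this
          try exact absurd ((CharP.cast_eq_zero_iff F 3 2).1 (by exact_mod_cast this)) (by norm_num)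
    have hm2 : Even m := neg_one_pow_eq_one_iff_even (by decide) |>.1 he
    have hd : 3 ∣ m * 2 := by
      by_contra hd
      rw [← Nat.div_add_mod (m * 2) 3, pow_add, pow_mul, h3, one_pow, one_mul] at hs
      rcases (by omega : m * 2 % 3 = 1 ∨ m * 2 % 3 = 2) with h' | h' <;> rw [h'] at hs
      · exact h2.1 hs
      · exact h2.2 hs
    obtain ⟨k, rfl⟩ := hm2
    omega

omit [Finite F] in
lemma exists_order_nine : ∃ x : H F, orderOf x = 9 := by
  have := Fact.mk Nat.prime_three
  let x : H F := SemidirectProduct.inl (Multiplicative.ofAdd !![0, 0; 1, 0]) * compl (uni, 1)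
  have hx : (x.right : MulAut (Multiplicative M₂)) = rho (uni, 1) := by simp [x, compl]
  have hxl : x.left = Multiplicative.ofAdd !![0, 0; 1, 0] := by simp [x, compl]
  refine ⟨x, (orderOf_eq_prime_pow (p := 3) (n := 1) ?_ ?_).trans (by norm_num)⟩
  · intro h
    have h' := congrArg SemidirectProduct.left h
    simp only [pow_one, pow_succ, pow_zero, one_mul, SemidirectProduct.mul_left, SemidirectProduct.mul_right,
      SemidirectProduct.one_left, map_mul, Subgroup.subtype_apply, hx, hxl, MulAut.mul_apply] at h'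
    have h'' := congrArg (fun y : Multiplicative M₂ => y.toAdd 0 1) h'
    simp only [rho_apply, act_apply, twist_uni, coe_uni_inv] at h''
    simp [uni] at h''
    have h3 : (3 : F) = 0 := by exact_mod_cast CharP.cast_eq_zero F 3
    exact one_ne_zero (α := F) (by linear_combination h'' + 2 * h3)
  · have h3 : (uni (F := F)) ^ 3 = 1 := Subtype.ext (by
      rw [coe_uni_pow, Matrix.SpecialLinearGroup.coe_one, CharP.cast_eq_zero F 3,
        Matrix.one_fin_two])
    have := pow_three_mul (x := x) (m := 3) (by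
      rw [hx, ← map_pow, Prod.pow_mk, h3, one_pow]; exact map_one _)
    simpa using this

lemma exists_order_split (hq : Nat.card F = 8 * j + 3) (hj : 1 ≤ j) :
    ∃ x : H F, orderOf x = 8 * j + 2 := by
  obtain ⟨g, -, hg, -⟩ := exists_torus_generator (F := F) (e := 8 * j + 2)
    (Or.inl (by rw [hq]; omega)) (by omega)
  refine ⟨compl (g, -1), ?_⟩
  rw [orderOf_eq_iff (by omega)]
  refine ⟨?_, fun m hm hm0 h => ?_⟩
  · rw [compl_pow, Prod.pow_mk, ← hg, pow_orderOf_eq_one, hg,
      show 8 * j + 2 = 2 * (4 * j + 1) by omega, pow_mul, Int.units_sq, one_pow]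
    exact map_one _
  · rw [compl_pow, Prod.pow_mk] at h
    obtain ⟨he, hs⟩ := eq_of_rho_eq_one h
    rw [← pow_mul, ← orderOf_dvd_iff_pow_eq_one, hg] at hs
    have hm2 : Even m := neg_one_pow_eq_one_iff_even (by decide) |>.1 he
    obtain ⟨k, rfl⟩ := hm2
    obtain ⟨l, hl⟩ := hs
    rcases Nat.lt_or_ge l 2 with hl2 | hl2
    · interval_cases l <;> omega
    · nlinarith

lemma exists_order_nonsplit (hq : Nat.card F = 8 * j + 3) :
    ∃ x : H F, orderOf x = 4 * j + 2 := by
  obtain ⟨g, -, hg, -⟩ := exists_torus_generator (F := F) (e := 8 * j + 4)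
    (Or.inr (by rw [hq])) (by omega)
  refine ⟨compl (g, 1), ?_⟩
  rw [orderOf_eq_iff (by omega)]
  refine ⟨?_, fun m hm hm0 h => ?_⟩
  · rw [compl_pow, Prod.pow_mk, one_pow]
    apply rho_pm_one
    apply eq_pm_one_of_sq
    rw [← pow_mul, show (4 * j + 2) * 2 = 8 * j + 4 by omega, ← hg, pow_orderOf_eq_one]
  · rw [compl_pow, Prod.pow_mk] at h
    obtain ⟨-, hs⟩ := eq_of_rho_eq_one h
    rw [← pow_mul, ← orderOf_dvd_iff_pow_eq_one, hg] at hs
    exact absurd (Nat.le_of_dvd (by omega) hs) (by omega)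

lemma maximalOrders (hq : Nat.card F = 8 * j + 3) (hj : 2 ≤ j) (h3 : 3 ∣ 8 * j + 3) :
    {n : ℕ | n ∈ Set.range (orderOf : H F → ℕ) ∧
      ∀ m ∈ Set.range (orderOf : H F → ℕ), n ∣ m → m = n} =
      ({6, 9, 8 * j + 2, 4 * j + 2} : Set ℕ) := by
  have hall : ∀ x : H F, ∃ a ∈ ({6, 9, 8 * j + 2, 4 * j + 2} : Set ℕ), orderOf x ∣ a := fun x => by
    rcases pow_dichotomy hq x with h | h | h | h <;>
      exact ⟨_, by simp, orderOf_dvd_of_pow_eq_one h⟩
  have hex : ∀ a ∈ ({6, 9, 8 * j + 2, 4 * j + 2} : Set ℕ), ∃ x : H F, orderOf x = a := by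
    rintro a (rfl | rfl | rfl | rfl)
    exacts [exists_order_six, exists_order_nine, exists_order_split hq (by omega),
      exists_order_nonsplit hq]
  have hanti : ∀ a ∈ ({6, 9, 8 * j + 2, 4 * j + 2} : Set ℕ),
      ∀ b ∈ ({6, 9, 8 * j + 2, 4 * j + 2} : Set ℕ), a ∣ b → a = b := by
    rintro a (rfl | rfl | rfl | rfl) b (rfl | rfl | rfl | rfl) h <;>
      first
        | rfl
        | omega
        | exact absurd (Nat.le_of_dvd (by omega) h) (by omega)
        | (exfalso
           have h' := Nat.dvd_sub (dvd_mul_left (4 * j + 2) 2) h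
           have := Nat.le_of_dvd (by omega) h'
           omega)
  ext n
  constructor
  · rintro ⟨⟨x, rfl⟩, hmax⟩
    obtain ⟨a, ha, hd⟩ := hall x
    obtain ⟨y, hy⟩ := hex a ha
    rwa [← hmax a ⟨y, hy⟩ hd]
  · intro hn
    refine ⟨hex n hn, ?_⟩
    rintro m ⟨x, rfl⟩ hd
    obtain ⟨a, ha, hxa⟩ := hall x
    obtain rfl := hanti n hn a ha (hd.trans hxa)
    exact Nat.dvd_antisymm hxa hd

omit [Finite F] in
lemma exists_normal_three :
    ∃ P : Subgroup (H F), P.Normal ∧ P ≠ ⊥ ∧ IsPGroup 3 ↥P := by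
  refine ⟨(SemidirectProduct.inl : Multiplicative M₂ →* H F).range, ?_, ?_, ?_⟩
  · rw [SemidirectProduct.range_inl_eq_ker_rightHom]; infer_instance
  · intro h
    have h1 : SemidirectProduct.inl (φ := (K F).subtype) (Multiplicative.ofAdd (1 : M₂)) = 1 :=
      Subgroup.mem_bot.1 (h ▸ ⟨_, rfl⟩)
    rw [map_eq_one_iff _ SemidirectProduct.inl_injective, ofAdd_eq_one] at h1
    exact one_ne_zero h1
  · rintro ⟨_, w, rfl⟩
    exact ⟨1, Subtype.ext (by simp [← map_pow, cube_eq_one])⟩

end CfsgLib.SL2.TwistedTensor
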